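import Mathlib
import Cfsg.Agent.FastGrp
import Cfsg.Agent.Prune
set_option linter.all false
prune_inst 0x7f00000000000000000000000000000000000000000000000000000000000000000000000000000000000000000000000000000000000000000000000000000000000000000000000000000000000000003fffffffffffffffffffffffffffbeffbdffffffff
open scoped Cfsg.Agent.FastGrp

/-!
# MO, local extension: general lemmas (helper73)

* `exists_transfer` : the product of the transfers of homomorphisms on the stabilisers of an action;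
* `exists_glue` : gluing of a homomorphism on a normalised subgroup with a homomorphism on a supplement;
* `exists_extend` : linear characters extend along injective homomorphisms of commutative groups;
* `surj_of_pow` : Lang's map is onto if it is onto for a power.
-/

set_option autoImplicit false

namespace Cfsg.Agent.MO.Lx

theorem exists_transfer {B O C : Type*} [Group B] [MulAction B O] [Fintype O] [CommGroup C] (lam : O → B → C)
    (hl : ∀ o a b, a • o = o → b • o = o → lam o (a * b) = lam o a * lam o b) :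
    ∃ (Θ : B →* C) (r : O → O) (g : O → B), (∀ o, g o • r o = o) ∧
      ∀ t, (∀ o : O, t • o = o) → Θ t = ∏ o, lam (r o) ((g o)⁻¹ * t * g o) := by
  let r : O → O := fun o => (Quotient.mk (MulAction.orbitRel B O) o).out
  have h1 : ∀ o, ∃ g : B, g • r o = o := fun o =>
    (MulAction.orbitRel B O).symm (Quotient.exact (Quotient.out_eq (Quotient.mk (MulAction.orbitRel B O) o)))
  choose g hg using h1
  have h2 : ∀ (a : B) o, r (a • o) = r o := fun a o =>
    congrArg Quotient.out (Quotient.sound (s := MulAction.orbitRel B O) ⟨a, rfl⟩)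
  have h3 : ∀ (a : B) o, ((g (a • o))⁻¹ * a * g o) • r o = r o := fun a o => by
    rw [mul_smul, mul_smul, hg, inv_smul_eq_iff, ← h2 a o, hg]
  refine ⟨MonoidHom.mk' (fun a => ∏ o, lam (r o) ((g (a • o))⁻¹ * a * g o)) fun a b => ?_, r, g, hg, fun t ht => ?_⟩
  · rw [← Equiv.prod_comp (MulAction.toPerm b) fun o => lam (r o) ((g (a • o))⁻¹ * a * g o), ← Finset.prod_mul_distrib]
    refine Finset.prod_congr rfl fun o _ => ?_
    have h4 := h3 a (b • o)
    rw [h2] at h4
    rw [MulAction.toPerm_apply, h2, ← hl _ _ _ h4 (h3 b o), mul_smul]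
    congr 1
    group
  · exact Finset.prod_congr rfl fun o _ => by rw [ht]

theorem exists_glue {A S C : Type*} [Group A] [Group S] [CommGroup C] {U P : Subgroup A} {f : A → C} {j : S →* A}
    {μ : S →* C} (hf : ∀ a ∈ U, ∀ b ∈ U, f (a * b) = f a * f b) (hμ : ∀ σ, j σ ∈ U → μ σ = f (j σ))
    (hP : ∀ g ∈ P, (∃ σ, g * (j σ)⁻¹ ∈ U) ∧ ∀ u ∈ U, g * u * g⁻¹ ∈ U ∧ f (g * u * g⁻¹) = f u) :
    ∃ l : A → C, (∀ a ∈ P, ∀ b ∈ P, l (a * b) = l a * l b) ∧ ∀ σ, ∀ u ∈ U, l (u * j σ) = f u * μ σ := by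
  classical
  let l : A → C := fun g => if h : ∃ σ, g * (j σ)⁻¹ ∈ U then f (g * (j h.choose)⁻¹) * μ h.choose else 1
  have h1 : ∀ g σ, g * (j σ)⁻¹ ∈ U → l g = f (g * (j σ)⁻¹) * μ σ := fun g σ hσ => by
    have h : ∃ σ, g * (j σ)⁻¹ ∈ U := ⟨σ, hσ⟩
    have h2 : j (σ * h.choose⁻¹) ∈ U := by
      have := mul_mem (inv_mem hσ) h.choose_spec
      rwa [mul_inv_rev, inv_inv, mul_assoc, inv_mul_cancel_left, ← map_inv, ← map_mul] at this
    have h3 : g * (j h.choose)⁻¹ = g * (j σ)⁻¹ * j (σ * h.choose⁻¹) := by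
      rw [map_mul, map_inv, mul_assoc, inv_mul_cancel_left]
    show dite _ _ _ = _
    rw [dif_pos h, h3, hf _ hσ _ h2, ← hμ _ h2, mul_assoc, ← map_mul, inv_mul_cancel_right]
  refine ⟨l, fun a ha b hb => ?_, fun σ u hu => ?_⟩
  · obtain ⟨⟨σ, hσ⟩, h2⟩ := hP a ha
    obtain ⟨⟨τ, hτ⟩, -⟩ := hP b hb
    have h3 : a * b * (j (σ * τ))⁻¹ = a * (b * (j τ)⁻¹) * a⁻¹ * (a * (j σ)⁻¹) := by
      rw [map_mul]; group
    rw [h1 _ (σ * τ) (h3 ▸ mul_mem (h2 _ hτ).1 hσ), h3, hf _ (h2 _ hτ).1 _ hσ, (h2 _ hτ).2, h1 _ _ hσ, h1 _ _ hτ, map_mul,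
      mul_comm (f (b * _)), mul_mul_mul_comm]
  · rw [h1 _ σ (by rwa [mul_inv_cancel_right]), mul_inv_cancel_right]

theorem exists_extend {M N : Type*} [CommGroup M] [CommGroup N] (i : M →* N) (hi : Function.Injective i)
    (f : M →* ℂˣ) : ∃ g : N →* ℂˣ, ∀ x, g (i x) = f x := by
  let _ : DivisibleBy (Additive ℂˣ) ℤ := divisibleByOfSMulRightSurj _ _ fun {n} h a => by
    obtain ⟨z, hz⟩ := IsAlgClosed.exists_pow_nat_eq (a.toMul : ℂ) (Int.natAbs_pos.2 h)
    have h0 : z ≠ 0 := fun e => by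
      rw [e, zero_pow (Int.natAbs_ne_zero.2 h)] at hz
      exact a.toMul.ne_zero hz.symm
    have h1 : Units.mk0 z h0 ^ n.natAbs = a.toMul := Units.ext hz
    rcases Int.natAbs_eq n with e | e
    · exact ⟨Additive.ofMul (Units.mk0 z h0), by
        rw [e]; exact (congrArg Additive.ofMul ((zpow_natCast _ _).trans h1))⟩
    · exact ⟨Additive.ofMul (Units.mk0 z h0)⁻¹, by
        rw [e]; exact congrArg Additive.ofMul (by rw [toMul_ofMul, inv_zpow', neg_neg, zpow_natCast, h1]; rfl)⟩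
  obtain ⟨g, hg⟩ := (Module.Baer.of_divisible (Additive ℂˣ)).extension_property_addMonoidHom i.toAdditive hi f.toAdditive
  exact ⟨g.toMultiplicative, fun x => DFunLike.congr_fun hg (Additive.ofMul x)⟩

theorem surj_of_pow {T : Type*} [CommGroup T] (ψ : T →* T) {U : Subgroup T} (hU : ∀ t ∈ U, ψ t ∈ U) (d : ℕ) {u : T}
    (hu : u ∈ U) : ∃ t ∈ U, t⁻¹ * ψ t = u⁻¹ * ψ^[d] u := by
  induction d with
  | zero => exact ⟨1, one_mem _, by simp⟩
  | succ d ih =>
    obtain ⟨t, ht, h⟩ := ih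
    refine ⟨u * ψ t, mul_mem hu (hU t ht), ?_⟩
    have h1 := congrArg ψ h
    rw [map_mul, map_inv, map_mul, map_inv, inv_mul_eq_iff_eq_mul] at h1
    rw [Function.iterate_succ_apply', map_mul, h1, mul_inv, mul_assoc u⁻¹, mul_left_comm (ψ u), inv_mul_cancel_left,
      mul_inv_cancel_left]

end Cfsg.Agent.MO.Lx
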