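import Cfsg.Agent.MQ.Lx.Gen
import Cfsg.Agent.Prune
set_option linter.all false
prune_inst 0x7f00000000000000000000000000000000000000000000000000000000000000000000000000000000000000000000000000000000000000000000000000000000000000000000000000000000000000003fffffffffffffffffffffffffffbeffbdffffffff
open scoped Cfsg.Agent.FastGrp

/-!
# MO, local extension: monomial symplectic maps (helper73)

* `Wr Φ fr` : semilinear monomial maps; `Sg.Sp` : those which preserve the symplectic pairing of opposite roots;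
* `Sg.wr_ext` : a character of the fixed points of `φ` on the diagonal torus extends to its stabiliser in the centraliser of `φ`;
* `Sg.lang` : Lang's theorem for the diagonal torus.
-/

set_option autoImplicit false

namespace Cfsg.Agent.MO.Lx

theorem ias {Φ : Type} (f : Equiv.Perm Φ) (b : Φ) : f⁻¹ (f b) = b := f.symm_apply_apply b

variable {Φ K : Type} [CommGroup K]

/-- semilinear monomial maps: `u e_b ↦ m b * fr ^ e b u` times `e_(π b)` -/
@[ext] structure Wr (Φ : Type) (fr : MulAut K) where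
  π : Equiv.Perm Φ
  e : Φ → ℤ
  m : Φ → K

namespace Wr

variable {fr : MulAut K}

instance instMul : Mul (Wr Φ fr) := ⟨fun g h =>
  ⟨g.π * h.π, fun b => g.e (h.π b) + h.e b, fun b => g.m (h.π b) * (fr ^ g.e (h.π b)) (h.m b)⟩⟩

instance instOne : One (Wr Φ fr) := ⟨⟨1, 0, 1⟩⟩

instance instInv : Inv (Wr Φ fr) := ⟨fun g =>
  ⟨g.π⁻¹, fun b => -g.e (g.π⁻¹ b), fun b => ((fr ^ (-g.e (g.π⁻¹ b))) (g.m (g.π⁻¹ b)))⁻¹⟩⟩

theorem mul_π (g h : Wr Φ fr) (b : Φ) : (g * h).π b = g.π (h.π b) := rfl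

theorem mul_e (g h : Wr Φ fr) (b : Φ) : (g * h).e b = g.e (h.π b) + h.e b := rfl

theorem mul_m (g h : Wr Φ fr) (b : Φ) : (g * h).m b = g.m (h.π b) * (fr ^ g.e (h.π b)) (h.m b) := rfl

instance instGroup : Group (Wr Φ fr) := Group.ofLeftAxioms
  (fun g h l => Wr.ext (mul_assoc _ _ _) (funext fun b => add_assoc _ _ _) (funext fun b => by
    simp only [mul_m, mul_π, mul_e, map_mul, zpow_add, MulAut.mul_apply, mul_assoc]))
  (fun g => Wr.ext (one_mul _) (funext fun b => zero_add _) (funext fun b => one_mul _))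
  fun g => Wr.ext (inv_mul_cancel _) (funext fun b => by
    show -g.e (g.π⁻¹ (g.π b)) + g.e b = 0
    rw [ias, neg_add_cancel]) (funext fun b => by
    show ((fr ^ (-g.e (g.π⁻¹ (g.π b)))) (g.m (g.π⁻¹ (g.π b))))⁻¹ * (fr ^ (-g.e (g.π⁻¹ (g.π b)))) (g.m b) = 1
    rw [ias, inv_mul_cancel])

theorem inv_π (g : Wr Φ fr) : g⁻¹.π = g.π⁻¹ := rfl

/-- the diagonal maps -/
def dg : (Φ → K) →* Wr Φ fr where
  toFun t := ⟨1, 0, t⟩
  map_one' := rfl
  map_mul' _ _ := Wr.ext (mul_one _).symm (funext fun _ => (add_zero _).symm) rfl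

/-- the action on the diagonal maps -/
def ac (g : Wr Φ fr) : (Φ → K) →* (Φ → K) where
  toFun t b := (fr ^ g.e (g.π⁻¹ b)) (t (g.π⁻¹ b))
  map_one' := funext fun _ => map_one _
  map_mul' _ _ := funext fun _ => map_mul _ _ _

theorem ac_apply (g : Wr Φ fr) (t : Φ → K) (b : Φ) : g.ac t (g.π b) = (fr ^ g.e b) (t b) := by
  show (fr ^ g.e (g.π⁻¹ (g.π b))) (t (g.π⁻¹ (g.π b))) = _
  rw [ias]

theorem mul_dg (g : Wr Φ fr) (t : Φ → K) : g * dg t = dg (g.ac t) * g :=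
  Wr.ext ((mul_one _).trans (one_mul _).symm) (funext fun _ => (add_zero _).trans (zero_add _).symm) (funext fun b => by
    show g.m b * (fr ^ g.e b) (t b) = g.ac t (g.π b) * g.m b
    rw [ac_apply, mul_comm])

theorem dg_inj : Function.Injective (dg : (Φ → K) →* Wr Φ fr) := fun _ _ h => congrArg Wr.m h

theorem ac_mul (g h : Wr Φ fr) (t : Φ → K) : (g * h).ac t = g.ac (h.ac t) := dg_inj (fr := fr) (mul_right_cancel (b := g * h) (by
  rw [← mul_dg, mul_assoc, mul_dg, ← mul_assoc, mul_dg, mul_assoc]))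

theorem ac_pow (g : Wr Φ fr) (d : ℕ) (t : Φ → K) : (g ^ d).ac t = g.ac^[d] t := by
  induction d with
  | zero => rfl
  | succ d ih => rw [pow_succ', ac_mul, ih, Function.iterate_succ_apply']

theorem eq_dg {g : Wr Φ fr} (h : ∀ b, g.π b = b ∧ g.e b = 0) : g = dg g.m :=
  Wr.ext (Equiv.ext fun b => (h b).1) (funext fun b => (h b).2) rfl

/-- the underlying permutation of roots and levels -/
def bar : Wr Φ fr →* Equiv.Perm (Φ × ℤ) := MonoidHom.toHomPerm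
  { toFun g z := (g.π z.1, g.e z.1 + z.2)
    map_one' := funext fun _ => Prod.ext rfl (zero_add _)
    map_mul' _ _ := funext fun _ => Prod.ext rfl (add_assoc _ _ _) }

theorem bar_apply (g : Wr Φ fr) (z : Φ × ℤ) : bar g z = (g.π z.1, g.e z.1 + z.2) := rfl

theorem conj_at {v a u : Wr Φ fr} (h : v * a = a * u) {b : Φ} (h1 : u.π b = b) (h2 : u.e b = 0) :
    v.π (a.π b) = a.π b ∧ v.e (a.π b) = 0 ∧ v.m (a.π b) = (fr ^ a.e b) (u.m b) := by
  have e1 := congrArg (fun g => g.π b) h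
  have e2 := congrArg (fun g => g.e b) h
  have e3 := congrArg (fun g => g.m b) h
  simp only [mul_π, mul_e, mul_m, h1, h2, add_zero, add_eq_right] at e1 e2 e3
  rw [e2, zpow_zero, MulAut.one_apply, mul_comm, mul_right_inj] at e3
  exact ⟨e1, e2, e3⟩

end Wr

open Wr

/-- roots with signs -/
structure Sg (Φ K : Type) [CommGroup K] where
  ng : Φ → Φ
  pos : Φ → Prop
  fr : MulAut K
  η : K
  ng_ng : ∀ b, ng (ng b) = b
  pos_ng : ∀ b, pos (ng b) ↔ ¬ pos b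
  η_sq : η * η = 1
  fr_η : fr η = η

namespace Sg

variable (S : Sg Φ K)

open Classical in
/-- the sign of a root -/
noncomputable def ε (b : Φ) : K := if S.pos b then 1 else S.η

theorem zpow_η (n : ℤ) : (S.fr ^ n) S.η = S.η := 
  zpow_mem (show S.fr ∈ MulAction.stabilizer (MulAut K) S.η from S.fr_η) n

theorem zpow_ε (n : ℤ) (b : Φ) : (S.fr ^ n) (S.ε b) = S.ε b := by
  unfold ε
  split_ifs
  exacts [map_one _, S.zpow_η n]

theorem ε_sq (b : Φ) : S.ε b * S.ε b = 1 := by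
  unfold ε
  split_ifs
  exacts [mul_one _, S.η_sq]

theorem ε_ng (b : Φ) : S.ε (S.ng b) = S.η * S.ε b := by
  unfold ε
  by_cases h : S.pos b
  · rw [if_neg (by rwa [S.pos_ng, not_not]), if_pos h, mul_one]
  · rw [if_pos ((S.pos_ng b).2 h), if_neg h, S.η_sq]

/-- the symplectic maps -/
def Sp : Subgroup (Wr Φ S.fr) where
  carrier := {g | ∀ b, g.π (S.ng b) = S.ng (g.π b) ∧ g.e (S.ng b) = g.e b ∧
    g.m b * g.m (S.ng b) = S.ε b * S.ε (g.π b)}
  one_mem' b := ⟨rfl, rfl, (mul_one _).trans (S.ε_sq b).symm⟩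
  mul_mem' {g h} hg hh b := by
    simp only [mul_π, mul_e, mul_m, (hh b).1, (hh b).2.1, (hg _).1, (hg _).2.1, true_and]
    rw [mul_mul_mul_comm, ← map_mul, (hg _).2.2, (hh _).2.2, map_mul, zpow_ε, zpow_ε, mul_comm (S.ε (h.π b)),
      mul_comm (S.ε b), mul_mul_mul_comm, mul_comm _ (S.ε (h.π b)), mul_mul_mul_comm, ε_sq, one_mul, mul_comm]
  inv_mem' {g} hg b := by
    obtain ⟨b, rfl⟩ := g.π.surjective b
    have h1 : g⁻¹.π (g.π b) = b := ias _ b
    have h2 : g.π⁻¹ (S.ng (g.π b)) = S.ng b := by rw [← (hg b).1, ias]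
    refine ⟨h2.trans (congrArg _ h1.symm), ?_, ?_⟩
    · show -g.e (g.π⁻¹ _) = -g.e (g.π⁻¹ _)
      rw [h2, ias, (hg b).2.1]
    · show ((S.fr ^ (-g.e (g.π⁻¹ _))) (g.m (g.π⁻¹ _)))⁻¹ * ((S.fr ^ (-g.e (g.π⁻¹ _))) (g.m (g.π⁻¹ _)))⁻¹ = _
      rw [h1, h2, ias, (hg b).2.1, ← mul_inv, ← map_mul, (hg b).2.2, map_mul, zpow_ε, zpow_ε,
        inv_eq_iff_mul_eq_one, mul_comm (S.ε (g.π b)), mul_mul_mul_comm, ε_sq, ε_sq, mul_one]

/-- the diagonal torus -/
def TN : Subgroup (Φ → K) := S.Sp.comap dg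

theorem mem_TN {t : Φ → K} : t ∈ S.TN ↔ ∀ b, t b * t (S.ng b) = 1 :=
  forall_congr' fun b => ⟨fun h => h.2.2.trans (S.ε_sq b), fun h => ⟨rfl, rfl, h.trans (S.ε_sq b).symm⟩⟩

theorem ac_mem {g : Wr Φ S.fr} (hg : g ∈ S.Sp) {t : Φ → K} (ht : t ∈ S.TN) : g.ac t ∈ S.TN := by
  have h : dg (g.ac t) = g * dg t * g⁻¹ := by rw [mul_dg, mul_inv_cancel_right]
  exact Subgroup.mem_comap.2 (h.symm ▸ mul_mem (mul_mem hg ht) (inv_mem hg))

/-- **Lang** -/
theorem lang {φ : Wr Φ S.fr} (hφ : φ ∈ S.Sp) (h1 : ∀ n : ℤ, n ≠ 0 → ∀ c, ∃ u, u⁻¹ * (S.fr ^ n) u = c) {d : ℕ}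
    (h2 : ∀ b, (φ ^ d).π b = b ∧ (φ ^ d).e b ≠ 0) {c : Φ → K} (hc : c ∈ S.TN) : ∃ t ∈ S.TN, t⁻¹ * φ.ac t = c := by
  classical
  choose u hu using fun b => h1 _ (h2 b).2 (c b)
  let v : Φ → K := fun b => if S.pos b then u b else (u (S.ng b))⁻¹
  have hv : v ∈ S.TN := S.mem_TN.2 fun b => by
    by_cases h : S.pos b
    · simp only [v, if_pos h, if_neg (mt (S.pos_ng b).1 (not_not.2 h)), S.ng_ng, mul_inv_cancel]
    · simp only [v, if_neg h, if_pos ((S.pos_ng b).2 h), inv_mul_cancel]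
  obtain ⟨t, ht, h⟩ := surj_of_pow φ.ac (fun _ => S.ac_mem hφ) d hv
  refine ⟨t, ht, h.trans (funext fun b => ?_)⟩
  have h3 := ac_apply (φ ^ d) v b
  rw [(h2 b).1] at h3
  rw [← ac_pow, Pi.mul_apply, Pi.inv_apply, h3]
  by_cases h : S.pos b
  · simp only [v, if_pos h, hu]
  · have h4 := hu (S.ng b)
    rw [(pow_mem hφ d b).2.1] at h4
    simp only [v, if_neg h, map_inv]
    rw [← mul_inv, h4, eq_comm, eq_inv_iff_mul_eq_one, S.mem_TN.1 hc]

/-- the map `e_b ↦ ε b e_(-b)` -/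
noncomputable def J : Wr Φ S.fr := ⟨Function.Involutive.toPerm S.ng S.ng_ng, 0, S.ε⟩

/-- the field automorphism -/
def Fr : Wr Φ S.fr := ⟨1, 1, 1⟩

theorem J_mem : S.J ∈ S.Sp := fun _ => ⟨rfl, rfl, rfl⟩

theorem Fr_mem : S.Fr ∈ S.Sp := fun b => ⟨rfl, rfl, (mul_one _).trans (S.ε_sq b).symm⟩

theorem Fr_zpow (n : ℤ) : S.Fr ^ n = ⟨1, fun _ => n, 1⟩ := by
  induction n with
  | zero => rfl
  | succ n ih => rw [zpow_add_one, ih]; exact Wr.ext (mul_one _) rfl (funext fun _ => by simp [mul_m, Fr])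
  | pred n ih =>
    rw [zpow_sub_one, ih, mul_inv_eq_iff_eq_mul]
    exact Wr.ext (mul_one _).symm (funext fun _ => by simp [mul_e, Fr]) (funext fun _ => by simp [mul_m, Fr])

variable {S} {φ : Wr Φ S.fr}

theorem comm_Fr (h : ∀ b, S.fr (φ.m b) = φ.m b) : Commute S.Fr φ :=
  Wr.ext ((one_mul _).trans (mul_one _).symm) (funext fun _ => add_comm _ _) (funext fun b => by
    simp [mul_m, Fr, h])

theorem comm_J (hφ : φ ∈ S.Sp) (h : ∀ b, φ.m b * φ.m b = 1) : Commute S.J φ :=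
  Wr.ext (Equiv.ext fun b => (hφ b).1.symm) (funext fun b => (zero_add _).trans ((hφ b).2.1.symm.trans (add_zero _).symm))
    (funext fun b => by
      show S.ε (φ.π b) * φ.m b = φ.m (S.ng b) * (S.fr ^ φ.e (S.ng b)) (S.ε b)
      rw [zpow_ε, ← mul_right_inj (φ.m b), ← mul_assoc (φ.m b) (φ.m _), (hφ b).2.2, mul_left_comm, h, mul_right_comm, ε_sq,
        mul_comm])

theorem bar_J {g : Wr Φ S.fr} (hg : g ∈ S.Sp) : Commute (bar S.J) (bar g) := Equiv.ext fun _ =>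
  Prod.ext (hg _).1.symm ((zero_add _).trans (congrArg₂ (· + ·) (hg _).2.1.symm (zero_add _).symm))

theorem bar_Fr (g : Wr Φ S.fr) : Commute (bar S.Fr) (bar g) := Equiv.ext fun _ => Prod.ext rfl (add_left_comm _ _ _)

/-- **the extension in the wreath product** -/
theorem wr_ext [Fintype Φ] (hφ : φ ∈ S.Sp) (hm : ∀ b, φ.m b = 1 ∨ φ.m b = S.η)
    (hfree : ∀ (c : ℤ) b, (φ ^ c).π b = b → (φ ^ c).e b = 0 → c = 0) {θ : (Φ → K) → ℂˣ}
    (hθ : ∀ t ∈ S.TN, ∀ t' ∈ S.TN, φ.ac t = t → φ.ac t' = t' → θ (t * t') = θ t * θ t') {P : Subgroup (Wr Φ S.fr)}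
    (hP : ∀ g ∈ P, g ∈ S.Sp ∧ g * φ = φ * g ∧ ∀ t ∈ S.TN, φ.ac t = t → θ (g.ac t) = θ t) :
    ∃ Θ : P →* ℂˣ, (∀ t (h : dg t ∈ P), Θ ⟨dg t, h⟩ = θ t) ∧ ∀ h : φ ∈ P, Θ ⟨φ, h⟩ = 1 := by
  classical
  have c1 : Commute S.J S.Fr := (comm_Fr fun b => (zpow_one S.fr ▸ S.zpow_ε 1 b :)).symm
  have c2 : Commute S.J φ := comm_J hφ fun b => by
    rcases hm b with h | h <;> rw [h]
    exacts [mul_one _, S.η_sq]
  have c3 : Commute S.Fr φ := comm_Fr fun b => by
    rcases hm b with h | h <;> rw [h]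
    exacts [map_one _, S.fr_η]
  let Z := Multiplicative ℤ
  let j : (Z × Z) × Z →* Wr Φ S.fr := ((zpowersHom _ S.J).noncommCoprod (zpowersHom _ S.Fr)
    fun _ _ => c1.zpow_zpow _ _).noncommCoprod (zpowersHom _ φ)
      fun _ _ => (c2.zpow_zpow _ _).mul_left (c3.zpow_zpow _ _)
  have hj : ∀ σ, j σ = S.J ^ σ.1.1.toAdd * S.Fr ^ σ.1.2.toAdd * φ ^ σ.2.toAdd := fun _ => rfl
  let C := S.Sp ⊓ Subgroup.centralizer {φ}
  have hC : ∀ g, g ∈ C ↔ g ∈ S.Sp ∧ g * φ = φ * g := fun g => and_congr_right fun _ =>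
    Subgroup.mem_centralizer_singleton_iff
  have jC : ∀ σ, j σ ∈ C := fun σ => mul_mem (mul_mem (zpow_mem ((hC _).2 ⟨S.J_mem, c2⟩) _)
    (zpow_mem ((hC _).2 ⟨S.Fr_mem, c3⟩) _)) (zpow_mem ((hC _).2 ⟨hφ, rfl⟩) _)
  have cb : ∀ g ∈ C, ∀ σ, Commute (bar (j σ)) (bar g) := fun g hg σ => by
    rw [hj, map_mul, map_mul, map_zpow, map_zpow, map_zpow]
    exact (((bar_J hg.1).zpow_left _).mul_left ((bar_Fr g).zpow_left _)).mul_left
      ((Commute.map ((hC g).1 hg).2.symm bar).zpow_left _)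
  let R : Setoid Φ := ⟨fun a b => ∃ σ, (j σ).π a = b, fun a => ⟨1, by rw [map_one]; rfl⟩,
    fun {a b} ⟨σ, h⟩ => ⟨σ⁻¹, by rw [map_inv, inv_π, ← h, ias]⟩,
    fun {a b c} ⟨σ, h⟩ ⟨τ, h'⟩ => ⟨τ * σ, by rw [map_mul, mul_π, h, h']⟩⟩
  have hR : ∀ g ∈ C, ∀ a b, R a b → R (g.π a) (g.π b) := fun g hg a b ⟨σ, h⟩ =>
    ⟨σ, h ▸ congrArg Prod.fst (DFunLike.congr_fun (cb g hg σ).eq (a, 0))⟩
  have PC : ∀ g : P, g.1 ∈ C := fun g => (hC _).2 ⟨(hP _ g.2).1, (hP _ g.2).2.1⟩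
  let _ : MulAction P (Quotient R) :=
    { smul g := Quotient.map g.1.π (hR _ (PC g))
      one_smul o := Quotient.inductionOn o fun _ => rfl
      mul_smul _ _ o := Quotient.inductionOn o fun _ => rfl }
  have hs : ∀ (g : P) b, g • Quotient.mk R b = Quotient.mk R (g.1.π b) := fun _ _ => rfl
  have hng : ∀ b, Quotient.mk R (S.ng b) = Quotient.mk R b := fun b =>
    (Quotient.sound (s := R) ⟨((.ofAdd 1, 1), 1), by simp [hj]; rfl⟩).symm
  have hφ' : ∀ b, Quotient.mk R (φ.π b) = Quotient.mk R b := fun b =>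
    (Quotient.sound (s := R) ⟨((1, 1), .ofAdd 1), by simp [hj]⟩).symm
  -- the elements which are diagonal on an orbit
  let U : Quotient R → Subgroup (Wr Φ S.fr) := fun o => C ⊓
    { carrier := {g | ∀ b, Quotient.mk R b = o → g.π b = b ∧ g.e b = 0}
      one_mem' _ _ := ⟨rfl, rfl⟩
      mul_mem' {g h} hg hh b hb := by rw [mul_π, mul_e, (hh b hb).1, (hh b hb).2, add_zero]; exact hg b hb
      inv_mem' {g} hg b hb := by
        have h1 : g.π⁻¹ b = b := by rw [Equiv.Perm.inv_eq_iff_eq, (hg b hb).1]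
        exact ⟨h1, (congrArg (fun x => -g.e x) h1).trans (neg_eq_zero.2 (hg b hb).2)⟩ }
  let ct : Quotient R → Wr Φ S.fr → Φ → K := fun o g b => if Quotient.mk R b = o then g.m b else 1
  have h1 : ∀ o, ∀ g ∈ U o, ct o g ∈ S.TN ∧ φ.ac (ct o g) = ct o g := fun o g hg => by
    refine ⟨S.mem_TN.2 fun b => ?_, funext fun b => ?_⟩
    · simp only [ct, hng]
      split_ifs with h
      · rw [(hg.1.1 b).2.2, (hg.2 b h).1, ε_sq]
      · exact mul_one _
    · obtain ⟨b, rfl⟩ := φ.π.surjective b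
      simp only [ac_apply, ct, hφ']
      split_ifs with h
      · exact (conj_at ((hC g).1 hg.1).2 (hg.2 b h).1 (hg.2 b h).2).2.2.symm
      · exact map_one _
  have h2 : ∀ o, ∀ a ∈ U o, ∀ b ∈ U o, θ (ct o (a * b)) = θ (ct o a) * θ (ct o b) := fun o a ha b hb => by
    rw [← hθ _ (h1 o a ha).1 _ (h1 o b hb).1 (h1 o a ha).2 (h1 o b hb).2]
    refine congrArg θ (funext fun c => ?_)
    simp only [ct, Pi.mul_apply]
    split_ifs with h
    · rw [mul_m, (hb.2 c h).1, (ha.2 c h).2, zpow_zero, MulAut.one_apply]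
    · exact (mul_one _).symm
  have h3 : ∀ o (a : P), ∀ u ∈ U o, a.1 * u * a.1⁻¹ ∈ U (a • o) ∧ θ (ct (a • o) (a.1 * u * a.1⁻¹)) = θ (ct o u) := by
    intro o a u hu
    have h4 : ∀ b, Quotient.mk R b = o → _ := fun b h =>
      conj_at (v := a.1 * u * a.1⁻¹) (a := a) (by simp) (hu.2 b h).1 (hu.2 b h).2
    refine ⟨⟨mul_mem (mul_mem (PC a) hu.1) (PC a⁻¹), fun b hb => ?_⟩, ?_⟩
    · obtain ⟨b, rfl⟩ := a.1.π.surjective b
      rw [← hs, smul_left_cancel_iff] at hb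
      exact ⟨(h4 b hb).1, (h4 b hb).2.1⟩
    · rw [← (hP _ a.2).2.2 _ (h1 o u hu).1 (h1 o u hu).2]
      refine congrArg θ (funext fun b => ?_)
      obtain ⟨b, rfl⟩ := a.1.π.surjective b
      simp only [ac_apply, ct, ← hs, smul_left_cancel_iff]
      split_ifs with h
      · exact (h4 b h).2.2
      · exact (map_one _).symm
  have h5 : ∀ o, ∃ l : Wr Φ S.fr → ℂˣ, (∀ a b : P, a • o = o → b • o = o → l (a * b) = l a * l b) ∧
      (∀ u ∈ U o, l u = θ (ct o u)) ∧ l φ = 1 := fun o => by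
    obtain ⟨α, rfl⟩ := Quotient.exists_rep o
    let V := (U (Quotient.mk R α)).comap j
    obtain ⟨μ, hμ⟩ := exists_extend ((MonoidHom.fst _ _).comp V.subtype) ((injective_iff_map_eq_one _).2 fun σ hσ => by
      have h6 := σ.2.2 α rfl
      have h7 : σ.1.1 = 1 := hσ
      simp only [hj, h7, Prod.fst_one, Prod.snd_one, toAdd_one, zpow_zero, one_mul] at h6
      exact Subtype.ext (Prod.ext h7 (hfree _ _ h6.1 h6.2)))
      (MonoidHom.mk' (fun σ => θ (ct (Quotient.mk R α) (j σ))) fun a b => by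
        rw [Subgroup.coe_mul, map_mul]; exact h2 _ _ a.2 _ b.2)
    obtain ⟨l, hl, hl'⟩ := exists_glue (U := U (Quotient.mk R α)) (j := j) (μ := μ.comp (MonoidHom.fst _ _))
      (f := fun g => θ (ct (Quotient.mk R α) g)) (P := (MulAction.stabilizer P (Quotient.mk R α)).map P.subtype) (h2 _) (fun σ h => hμ ⟨σ, h⟩) (by
        rintro _ ⟨g, hg, rfl⟩
        refine ⟨?_, fun u hu => (MulAction.mem_stabilizer_iff.1 hg ▸ h3 _ g u hu :)⟩
        obtain ⟨σ₀, h6⟩ : R α (g.1.π α) := Quotient.exact (MulAction.mem_stabilizer_iff.1 hg).symm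
        obtain ⟨σ, h7⟩ : ∃ σ, bar (j σ) (α, 0) = bar g.1 (α, 0) :=
          ⟨((1, .ofAdd (g.1.e α - (j σ₀).e α)), 1) * σ₀, by
            rw [map_mul, hj, bar_apply, bar_apply]
            simp [Fr_zpow, mul_π, mul_e, h6]⟩
        have h8 : g.1 * (j σ)⁻¹ ∈ C := C.mul_mem (PC g) (C.inv_mem (jC σ))
        refine ⟨σ, h8, fun b hb => ?_⟩
        obtain ⟨τ, rfl⟩ : R α b := Quotient.exact hb.symm
        have h9 := DFunLike.congr_fun (cb _ h8 (τ * σ⁻¹)).eq (bar (j σ) (α, 0))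
        rw [Equiv.Perm.mul_apply, ← Equiv.Perm.mul_apply (bar (g.1 * _)), ← map_mul, inv_mul_cancel_right, ← h7,
          Equiv.Perm.mul_apply, ← Equiv.Perm.mul_apply (bar (j _)), ← map_mul, ← map_mul, inv_mul_cancel_right] at h9
        exact ⟨(congrArg Prod.fst h9).symm, add_eq_right.1 (congrArg Prod.snd h9).symm⟩)
    refine ⟨l, fun a b ha hb => hl _ ⟨a, ha, rfl⟩ _ ⟨b, hb, rfl⟩, fun u hu => by simpa using hl' 1 u hu, ?_⟩
    have h9 := hl' (1, .ofAdd 1) 1 (one_mem _)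
    have h10 := h2 _ 1 (one_mem (U (Quotient.mk R α))) 1 (one_mem _)
    rw [mul_one, left_eq_mul] at h10
    simpa [hj, h10] using h9
  choose l hl hl1 hl2 using h5
  obtain ⟨Θ, r, g, hg, h⟩ := exists_transfer (B := P) (fun o a => l o a) hl
  refine ⟨Θ, fun t ht => ?_, fun ht => ?_⟩
  · have h6 : ∀ o, dg t ∈ U o := fun o => ⟨PC ⟨_, ht⟩, fun _ _ => ⟨rfl, rfl⟩⟩
    rw [h _ fun o => Quotient.inductionOn o fun _ => rfl]
    have h7 : ∀ s : Finset (Quotient R), (∏ o ∈ s, ct o (dg t) ∈ S.TN ∧ φ.ac (∏ o ∈ s, ct o (dg t)) = ∏ o ∈ s, ct o (dg t)) ∧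
        θ (∏ o ∈ s, ct o (dg t)) = ∏ o ∈ s, θ (ct o (dg t)) := fun s => by
      induction s using Finset.induction_on with
      | empty =>
        have h8 := hθ 1 (one_mem _) 1 (one_mem _) (map_one _) (map_one _)
        rw [mul_one, left_eq_mul] at h8
        exact ⟨⟨one_mem _, map_one _⟩, h8⟩
      | insert o s ho ih =>
        have h8 := h1 o _ (h6 o)
        rw [Finset.prod_insert ho, Finset.prod_insert ho, hθ _ h8.1 _ ih.1.1 h8.2 ih.1.2, ih.2, map_mul, h8.2, ih.1.2]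
        exact ⟨⟨mul_mem h8.1 ih.1.1, rfl⟩, rfl⟩
    have h8 : ∏ o, ct o (dg t) = t := funext fun b => by
      simp only [ct, Finset.prod_apply, Finset.prod_ite_eq, Finset.mem_univ, if_true]
      rfl
    refine Eq.trans ?_ ((h7 _).2.symm.trans (congrArg θ h8))
    refine Finset.prod_congr rfl fun o _ => ?_
    have h9 := h3 o (g o)⁻¹ _ (h6 o)
    rw [Subgroup.coe_inv, inv_inv, (inv_smul_eq_iff.2 (hg o).symm : (g o)⁻¹ • o = r o)] at h9
    exact (hl1 _ _ h9.1).trans h9.2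
  · rw [h _ fun o => Quotient.inductionOn o hφ']
    refine Finset.prod_eq_one fun o _ => ?_
    show l _ ((g o).1⁻¹ * φ * g o) = 1
    rw [mul_assoc, ← (hP _ (g o).2).2.1, inv_mul_cancel_left, hl2]

end Sg

end Cfsg.Agent.MO.Lx

private theorem dce_09513034820f : _root_.True := by
  try have : _root_.True := by simp only [_root_.Cfsg.Agent.MO.Lx.Sg.Fr.eq_1]
  exact _root_.True.intro
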